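import Mathlib

/-!
# Left-normed commutator values and their iteration
-/

set_option autoImplicit false

namespace Cfsg.Agent.CommValues

open scoped commutatorElement

variable {G : Type*} [Group G]

/-- The left-normed commutator values of length `k + 1`. -/
def values (G : Type*) [Group G] : ℕ → Set G
  | 0 => Set.univ
  | k + 1 => {z | ∃ v ∈ values G k, ∃ g : G, z = ⁅v, g⁆}

theorem mem_values_succ {k : ℕ} {z : G} :
    z ∈ values G (k + 1) ↔ ∃ v ∈ values G k, ∃ g : G, z = ⁅v, g⁆ := Iff.rfl

theorem mem_values_iff_foldl (k : ℕ) (x : G) :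
    x ∈ values G k ↔ ∃ f : Fin (k + 1) → G,
      x = ((List.ofFn f).tail).foldl (fun a b => a * b * a⁻¹ * b⁻¹) (f 0) := by
  induction k generalizing x with
  | zero => exact iff_of_true trivial ⟨fun _ => x, by simp⟩
  | succ k ih =>
    have key : ∀ f : Fin (k + 2) → G,
        ((List.ofFn f).tail).foldl (fun a b => a * b * a⁻¹ * b⁻¹) (f 0) =
        ⁅((List.ofFn fun i => f i.castSucc).tail).foldl (fun a b => a * b * a⁻¹ * b⁻¹)
          (f (Fin.castSucc (0 : Fin (k + 1)))), f (Fin.last (k + 1))⁆ := by
      intro f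
      rw [List.ofFn_succ' f, List.concat_eq_append, List.tail_append_of_ne_nil (by simp),
        List.foldl_append, List.foldl_cons, List.foldl_nil, commutatorElement_def]
      rfl
    constructor
    · rintro ⟨v, hv, g, rfl⟩
      obtain ⟨f, rfl⟩ := (ih v).1 hv
      refine ⟨Fin.snoc f g, ?_⟩
      rw [key]
      simp only [Fin.snoc_castSucc, Fin.snoc_last]
    · rintro ⟨f, rfl⟩
      exact ⟨_, (ih _).2 ⟨fun i => f i.castSucc, rfl⟩, f (Fin.last (k + 1)), key f⟩

theorem values_succ_subset (k : ℕ) : values G (k + 1) ⊆ values G k := by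
  induction k with
  | zero => exact fun _ _ => trivial
  | succ k ih =>
    rintro z ⟨v, hv, g, rfl⟩
    exact ⟨v, ih hv, g, rfl⟩

theorem comm_mem_values {k : ℕ} {v : G} (hv : v ∈ values G k) (g : G) : ⁅v, g⁆ ∈ values G k :=
  values_succ_subset k ⟨v, hv, g, rfl⟩

theorem map_mem_values {H : Type*} [Group H] (f : G →* H) {k : ℕ} {v : G}
    (hv : v ∈ values G k) : f v ∈ values H k := by
  induction k generalizing v with
  | zero => trivial
  | succ k ih =>
    obtain ⟨u, hu, g, rfl⟩ := hv
    exact ⟨f u, ih hu, f g, map_commutatorElement f u g⟩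

theorem exists_preimage_value {H : Type*} [Group H] {f : G →* H} (hf : Function.Surjective f)
    {k : ℕ} {v : H} (hv : v ∈ values H k) : ∃ u ∈ values G k, f u = v := by
  induction k generalizing v with
  | zero => obtain ⟨u, rfl⟩ := hf v; exact ⟨u, trivial, rfl⟩
  | succ k ih =>
    obtain ⟨w, hw, h, rfl⟩ := hv
    obtain ⟨u, hu, rfl⟩ := ih hw
    obtain ⟨g, rfl⟩ := hf h
    exact ⟨⁅u, g⁆, ⟨u, hu, g, rfl⟩, map_commutatorElement f u g⟩

theorem conj_mem_values {k : ℕ} {v : G} (hv : v ∈ values G k) (g : G) :
    g * v * g⁻¹ ∈ values G k := by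
  simpa using map_mem_values (MulAut.conj g).toMonoidHom hv

theorem values_subset_lcs (k : ℕ) :
    values G k ⊆ ((⊤ : Subgroup G).lowerCentralSeries k : Set G) := by
  induction k with
  | zero => exact fun _ _ => Subgroup.mem_top _
  | succ k ih =>
    rintro z ⟨v, hv, g, rfl⟩
    rw [Subgroup.lowerCentralSeries_succ]
    exact Subgroup.commutator_mem_commutator (ih hv) (Subgroup.mem_top g)

theorem closure_values_normal (k : ℕ) : (Subgroup.closure (values G k)).Normal := by
  refine ⟨fun n hn g => ?_⟩
  have h : (Subgroup.closure (values G k)).map (MulAut.conj g).toMonoidHom ≤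
      Subgroup.closure (values G k) := by
    rw [MonoidHom.map_closure, Subgroup.closure_le]
    rintro _ ⟨v, hv, rfl⟩
    exact Subgroup.subset_closure (map_mem_values _ hv)
  exact h ⟨n, hn, rfl⟩

theorem closure_values (k : ℕ) :
    Subgroup.closure (values G k) = (⊤ : Subgroup G).lowerCentralSeries k := by
  refine le_antisymm ((Subgroup.closure_le _).2 (values_subset_lcs k)) ?_
  induction k with
  | zero => exact fun x _ => Subgroup.subset_closure trivial
  | succ k ih =>
    rw [Subgroup.lowerCentralSeries_succ, Subgroup.commutator_le]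
    intro v hv g _
    have hN := closure_values_normal (G := G) (k + 1)
    set N := Subgroup.closure (values G (k + 1))
    have hc : ∀ u ∈ Subgroup.closure (values G k), ∀ g : G, ⁅u, g⁆ ∈ N := by
      intro u hu
      induction hu using Subgroup.closure_induction with
      | mem u hu => exact fun g => Subgroup.subset_closure ⟨u, hu, g, rfl⟩
      | one => intro g; rw [commutatorElement_one_left]; exact one_mem N
      | mul u w _ _ iu iw =>
        intro g
        have e : ⁅u * w, g⁆ = u * ⁅w, g⁆ * u⁻¹ * ⁅u, g⁆ := by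
          simp only [commutatorElement_def]; group
        rw [e]
        exact mul_mem (hN.conj_mem _ (iw g) u) (iu g)
      | inv u _ iu =>
        intro g
        have e : ⁅u⁻¹, g⁆ = u⁻¹ * ⁅u, g⁆⁻¹ * u⁻¹⁻¹ := by
          simp only [commutatorElement_def]; group
        rw [e]
        exact hN.conj_mem _ (inv_mem (iu g)) u⁻¹
    exact hc v (ih hv) g

/-- Iterated commutation with a fixed element. -/
def iter (x : G) : ℕ → G → G
  | 0, g => g
  | j + 1, g => ⁅iter x j g, x⁆

theorem iter_mem_values (x g : G) (j : ℕ) : iter x j g ∈ values G j := by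
  induction j with
  | zero => trivial
  | succ j ih => exact ⟨_, ih, x, rfl⟩

theorem map_iter {H : Type*} [Group H] (f : G →* H) (x g : G) (j : ℕ) :
    f (iter x j g) = iter (f x) j (f g) := by
  induction j with
  | zero => rfl
  | succ j ih => simp only [iter, map_commutatorElement, ih]

theorem comm_mem_of_normalizes {P : Subgroup G} {g x : G} (hg : g ∈ P)
    (hx : x ∈ Subgroup.normalizer (P : Set G)) : ⁅g, x⁆ ∈ P := by
  rw [commutatorElement_def, mul_assoc, mul_assoc]
  refine mul_mem hg ?_
  rw [← mul_assoc]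
  exact (Subgroup.mem_normalizer_iff.1 hx _).1 (inv_mem hg)

theorem iter_mem {P : Subgroup G} {x g : G} (hg : g ∈ P)
    (hx : x ∈ Subgroup.normalizer (P : Set G)) (j : ℕ) : iter x j g ∈ P := by
  induction j with
  | zero => exact hg
  | succ j ih => exact comm_mem_of_normalizes ih hx

/-- An element of order prime to `p` normalizing a `p`-subgroup: commutation does not die out. -/
theorem iter_ne_one [Finite G] {p : ℕ} [Fact p.Prime] {P : Subgroup G} (hP : IsPGroup p P)
    {x g : G} (hx : x ∈ Subgroup.normalizer (P : Set G)) (hco : (orderOf x).Coprime p)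
    (hg : g ∈ P) (h1 : ⁅g, x⁆ ≠ 1) (j : ℕ) : iter x (j + 1) g ≠ 1 := by
  induction j with
  | zero => exact h1
  | succ j ih =>
    intro h2
    set h := iter x j g with hh
    set w := iter x (j + 1) g with hw
    have hwP : w ∈ P := iter_mem hg hx (j + 1)
    have hwx : Commute w x := commutatorElement_eq_one_iff_commute.1 h2
    have e : h * x * h⁻¹ = w * x := by
      rw [hw, iter, ← hh, commutatorElement_def, inv_mul_cancel_right]
    have h3 : w ^ orderOf x = 1 := by
      have h4 : (w * x) ^ orderOf x = 1 := by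
        rw [← e, conj_pow, pow_orderOf_eq_one, mul_one, mul_inv_cancel]
      rwa [hwx.mul_pow, pow_orderOf_eq_one, mul_one] at h4
    obtain ⟨i, hi⟩ := hP ⟨w, hwP⟩
    have h5 : w ^ p ^ i = 1 := congrArg Subtype.val hi
    have h6 : w ^ (orderOf x).gcd (p ^ i) = 1 := pow_gcd_eq_one.2 ⟨h3, h5⟩
    rw [(hco.pow_right i : (orderOf x).Coprime (p ^ i)).gcd_eq_one, pow_one] at h6
    exact ih h6

/-- Nontrivial action modulo a homomorphism gives values outside its kernel. -/
theorem exists_value_not_mem [Finite G] {H : Type*} [Group H] [Finite H] (f : G →* H) {p : ℕ}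
    [Fact p.Prime] {P : Subgroup G} (hP : IsPGroup p P) {n h : G}
    (hn : n ∈ Subgroup.normalizer (P : Set G)) (hco : (orderOf (f n)).Coprime p) (hh : h ∈ P)
    (h1 : f ⁅h, n⁆ ≠ 1) (j : ℕ) :
    iter n (j + 1) h ∈ P ∧ f (iter n (j + 1) h) ≠ 1 := by
  refine ⟨iter_mem hh hn _, ?_⟩
  rw [map_iter]
  rw [map_commutatorElement] at h1
  refine iter_ne_one (P := P.map f) (hP.map f) ?_ hco (Subgroup.mem_map_of_mem f hh) h1 j
  exact Subgroup.le_normalizer_map f (Subgroup.mem_map_of_mem f hn)

end Cfsg.Agent.CommValues
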