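import Cfsg.Agent.CommValues.SolvableCond
import Cfsg.Agent.SolvStruct.NilHall

/-!
# The term of the lower central series is nilpotent under the product condition
-/

set_option autoImplicit false

namespace Cfsg.Agent.CommValues

open scoped commutatorElement

universe u

variable {G : Type u} [Group G] [Finite G]

/-- A group whose elements of prime power order prime to `q` are central is nilpotent. -/
theorem isNilpotent_of_central (q : ℕ)
    (h : ∀ r : ℕ, r.Prime → r ≠ q → ∀ z : G, (∃ i, z ^ r ^ i = 1) → z ∈ Subgroup.center G) :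
    Group.IsNilpotent G := by
  refine (Group.isNilpotent_of_finite_tfae.out 0 3 rfl rfl).2 fun r hr S => ?_
  haveI := hr
  have hcen : ∀ s : ℕ, s.Prime → s ≠ q → ∀ R : Sylow s G, (R : Subgroup G) ≤ Subgroup.center G := by
    intro s hs hsq R z hz
    obtain ⟨i, hi⟩ := R.2 ⟨z, hz⟩
    exact h s hs hsq z ⟨i, congrArg Subtype.val hi⟩
  rw [← Subgroup.normalizer_eq_top_iff]
  refine Cores.eq_top_of_forall_sylow_le _ fun s hs => ?_
  haveI : Fact s.Prime := ⟨hs⟩
  by_cases hsr : s = r
  · subst hsr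
    exact ⟨S, Subgroup.le_normalizer⟩
  obtain ⟨R⟩ : Nonempty (Sylow s G) := inferInstance
  by_cases hsq : s = q
  · refine ⟨R, fun x _ => ?_⟩
    rw [Subgroup.mem_normalizer_iff]
    intro z
    have key : ∀ z ∈ (S : Subgroup G), ∀ x : G, x * z * x⁻¹ = z := fun z hz x => by
      rw [Subgroup.mem_center_iff.1 (hcen r hr.out (fun e => hsr (hsq.trans e.symm)) S hz) x,
        mul_inv_cancel_right]
    exact ⟨fun hz => by rwa [key z hz x], fun hz => by
      have := key _ hz x⁻¹
      have e : x⁻¹ * (x * z * x⁻¹) * x⁻¹⁻¹ = z := by group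
      rw [e] at this
      rwa [this]⟩
  · exact ⟨R, (hcen s hs hsq R).trans (Subgroup.center_le_normalizer _)⟩

theorem mem_pCore_of_mem_fitting {r : ℕ} [Fact r.Prime] {x : G}
    (hx : x ∈ Cfsg.fittingSubgroup G) (hr : ∃ i, x ^ r ^ i = 1) : x ∈ Cfsg.pCore r G := by
  haveI := Cores.fittingSubgroup_isNilpotent (G := G)
  obtain ⟨i, hi⟩ := hr
  have hp : IsPGroup r (Subgroup.zpowers (⟨x, hx⟩ : Cfsg.fittingSubgroup G)) := by
    rintro ⟨_, j, rfl⟩
    refine ⟨i, Subtype.ext (Subtype.ext ?_)⟩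
    show ((x : G) ^ j) ^ r ^ i = 1
    rw [← zpow_natCast, ← zpow_mul, mul_comm, zpow_mul, zpow_natCast, hi, one_zpow]
  obtain ⟨R, hR⟩ := hp.exists_le_sylow
  have hn : (R : Subgroup (Cfsg.fittingSubgroup G)).Normal :=
    (Group.isNilpotent_of_finite_tfae.out 0 3 rfl rfl).1 inferInstance r inferInstance R
  have h1 := Cores.le_pCore hn R.2 (hR (Subgroup.mem_zpowers _))
  exact Cores.map_subtype_pCore_le (Subgroup.mem_map_of_mem _ h1)

/-- An `r`-power value mapping into `O_r(G/F(G))` lies in `F(G)`. -/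
theorem Cond.value_mem_fitting {k : ℕ} (h : Cond G k) {r : ℕ} [Fact r.Prime] {P : Subgroup G}
    (hP : IsPGroup r P) {v : G} (hvP : v ∈ P) (hv : v ∈ values G k)
    (him : (v : G ⧸ Cfsg.fittingSubgroup G) ∈ Cfsg.pCore r (G ⧸ Cfsg.fittingSubgroup G)) :
    v ∈ Cfsg.fittingSubgroup G := by
  set C : Subgroup G := (Cfsg.pCore r (G ⧸ Cfsg.fittingSubgroup G)).comap
      (QuotientGroup.mk' _) ⊓
    ⨅ q : {q : ℕ // q.Prime ∧ q ≠ r}, Subgroup.centralizer (Cfsg.pCore q.1 G : Set G) with hC
  haveI : C.Normal := by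
    haveI : (⨅ q : {q : ℕ // q.Prime ∧ q ≠ r},
        Subgroup.centralizer (Cfsg.pCore q.1 G : Set G)).Normal :=
      Subgroup.normal_iInf_normal fun q => inferInstance
    exact Subgroup.normal_inf_normal _ _
  have hnil : Group.IsNilpotent C := by
    refine isNilpotent_of_central r fun s hs hsr z hz => ?_
    haveI : Fact s.Prime := ⟨hs⟩
    obtain ⟨i, hi⟩ := hz
    have hi' : (z : G) ^ s ^ i = 1 := congrArg Subtype.val hi
    have hzF : (z : G) ∈ Cfsg.fittingSubgroup G := by
      rw [← QuotientGroup.eq_one_iff]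
      obtain ⟨j, hj⟩ := (Cores.pCore_isPGroup (p := r)) ⟨_, z.2.1⟩
      have hj' : (QuotientGroup.mk' (Cfsg.fittingSubgroup G) (z : G)) ^ r ^ j = 1 :=
        congrArg Subtype.val hj
      have hk : (QuotientGroup.mk' (Cfsg.fittingSubgroup G) (z : G)) ^ s ^ i = 1 := by
        rw [← map_pow, hi', map_one]
      have := pow_gcd_eq_one.2 ⟨hj', hk⟩
      rwa [Nat.Coprime.gcd_eq_one (((Nat.coprime_primes (Fact.out : r.Prime) hs).2 hsr.symm).pow _ _),
        pow_one] at this
    have hz' := mem_pCore_of_mem_fitting hzF ⟨i, hi'⟩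
    refine Subgroup.mem_center_iff.2 fun c => Subtype.ext ?_
    exact (Subgroup.mem_centralizer_iff.1 ((Subgroup.mem_iInf.1 c.2.2) ⟨s, hs, hsr⟩) _ hz').symm
  refine Cores.le_fittingSubgroup (N := C) inferInstance hnil ⟨him, Subgroup.mem_iInf.2 fun q => ?_⟩
  exact h.mem_centralizer_pCore hP hvP hv q.2.1 q.2.2.symm

theorem Cond.commute_pCore [Group.IsSolvable G] {k : ℕ} (h : Cond G k) {r : ℕ} [Fact r.Prime]
    {x y : G ⧸ Cfsg.fittingSubgroup G} (hy : y ∈ Cfsg.pCore r (G ⧸ Cfsg.fittingSubgroup G))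
    (hx : (orderOf x).Coprime r) : y * x = x * y := by
  set f := QuotientGroup.mk' (Cfsg.fittingSubgroup G)
  obtain ⟨P, hP, hPR, hle⟩ := exists_lift (QuotientGroup.mk'_surjective _)
    (Cores.pCore_isPGroup (p := r) (G := G ⧸ Cfsg.fittingSubgroup G))
  obtain ⟨n, hn, rfl⟩ := hle (Subgroup.normalizer_eq_top
    (H := Cfsg.pCore r (G ⧸ Cfsg.fittingSubgroup G)) ▸ Subgroup.mem_top x)
  rw [← hPR] at hy
  obtain ⟨g, hg, rfl⟩ := hy
  by_contra hne
  have h1 : f ⁅g, n⁆ ≠ 1 := fun he => hne (by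
    rw [map_commutatorElement, commutatorElement_eq_one_iff_commute] at he
    exact he)
  obtain ⟨hw, hw1⟩ := exists_value_not_mem f hP hn hx hg h1 k
  exact hw1 ((QuotientGroup.eq_one_iff _).2 (h.value_mem_fitting hP hw
    (values_succ_subset k (iter_mem_values _ _ _))
    (hPR ▸ Subgroup.mem_map_of_mem f hw)))

/-- The quotient by the Fitting subgroup is nilpotent. -/
theorem Cond.quotient_nilpotent [Group.IsSolvable G] {k : ℕ} (h : Cond G k) :
    Group.IsNilpotent (G ⧸ Cfsg.fittingSubgroup G) := by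
  set X := G ⧸ Cfsg.fittingSubgroup G
  rw [← Cores.fittingSubgroup_eq_top_iff]
  refine Cores.eq_top_of_forall_sylow_le _ fun q hq => ?_
  haveI : Fact q.Prime := ⟨hq⟩
  obtain ⟨S⟩ : Nonempty (Sylow q X) := inferInstance
  refine ⟨S, fun x hx => ?_⟩
  set W : Subgroup X := ⨅ r : {r : ℕ // r.Prime ∧ r ≠ q},
    Subgroup.centralizer (Cfsg.pCore r.1 X : Set X) with hW
  haveI : W.Normal := Subgroup.normal_iInf_normal fun r => inferInstance
  have hxW : x ∈ W := Subgroup.mem_iInf.2 fun r => by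
    haveI : Fact r.1.Prime := ⟨r.2.1⟩
    exact Subgroup.mem_centralizer_iff.2 fun y hy =>
      h.commute_pCore hy (coprime_orderOf_of_isPGroup r.2.1 r.2.2.symm S.2 hx)
  have hnil : Group.IsNilpotent W := by
    refine isNilpotent_of_central q fun s hs hsq z hz => ?_
    haveI : Fact s.Prime := ⟨hs⟩
    obtain ⟨i, hi⟩ := hz
    have hi' : (z : X) ^ s ^ i = 1 := congrArg Subtype.val hi
    have hzF : (z : X) ∈ Cfsg.fittingSubgroup X := by
      refine Cores.centralizer_fittingSubgroup_le ?_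
      have hle : Cfsg.fittingSubgroup X ≤ Subgroup.centralizer {(z : X)} := by
        refine le_of_eq_of_le (Cores.fittingSubgroup_eq_iSup_pCore (G := X)) ?_
        refine iSup_le fun r y hy => Subgroup.mem_centralizer_singleton_iff.2 ?_
        by_cases hrq : (r : ℕ) = q
        · haveI : Fact (r : ℕ).Prime := ⟨r.2⟩
          exact h.commute_pCore hy ((((Nat.coprime_primes hs r.2).2 (hrq ▸ hsq)).pow_left i
            ).coprime_dvd_left (orderOf_dvd_of_pow_eq_one hi'))
        · exact Subgroup.mem_centralizer_iff.1 ((Subgroup.mem_iInf.1 z.2) ⟨r, r.2, hrq⟩) y hy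
      exact Subgroup.mem_centralizer_iff.2 fun y hy =>
        Subgroup.mem_centralizer_singleton_iff.1 (hle hy)
    have hz' := mem_pCore_of_mem_fitting hzF ⟨i, hi'⟩
    refine Subgroup.mem_center_iff.2 fun c => Subtype.ext ?_
    exact (Subgroup.mem_centralizer_iff.1 ((Subgroup.mem_iInf.1 c.2) ⟨s, hs, hsq⟩) _ hz').symm
  exact Cores.le_fittingSubgroup (N := W) inferInstance hnil hxW

theorem Cond.lcs_le_fitting [Group.IsSolvable G] {k : ℕ} (h : Cond G k) :
    (⊤ : Subgroup G).lowerCentralSeries k ≤ Cfsg.fittingSubgroup G := by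
  set f := QuotientGroup.mk' (Cfsg.fittingSubgroup G)
  have hfs : Function.Surjective f := QuotientGroup.mk'_surjective _
  haveI := h.quotient_nilpotent
  set X := G ⧸ Cfsg.fittingSubgroup G
  have hnorm : ∀ {p : ℕ} [Fact p.Prime] (R : Sylow p X), (R : Subgroup X).Normal :=
    fun {p} _ R => (Group.isNilpotent_of_finite_tfae.out 0 3 rfl rfl).1 inferInstance p inferInstance R
  have hR : ∀ {p : ℕ} [Fact p.Prime] (R : Sylow p X),
      (⊤ : Subgroup R).lowerCentralSeries k = ⊥ := by
    intro p _ R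
    apply Subgroup.map_injective (R : Subgroup X).subtype_injective
    rw [Subgroup.top_subtype_lowerCentralSeries, Subgroup.map_bot]
    obtain ⟨P, hP, hPR, -⟩ := exists_lift hfs R.2
    rw [← hPR, ← Subgroup.map_lowerCentralSeries, Subgroup.map_eq_bot_iff, QuotientGroup.ker_mk',
      ← Subgroup.top_subtype_lowerCentralSeries, ← closure_values, MonoidHom.map_closure,
      Subgroup.closure_le]
    rintro _ ⟨v, hv, rfl⟩
    refine h.value_mem_fitting hP v.2 (map_mem_values P.subtype hv) ?_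
    exact Cores.le_pCore (hnorm R) R.2 (hPR ▸ Subgroup.mem_map_of_mem f v.2)
  have hX : (⊤ : Subgroup X).lowerCentralSeries k = ⊥ := by
    let e := Sylow.directProductOfNormal (G := X) (fun {p} _ R => hnorm R)
    rw [← Subgroup.map_top_of_surjective e.toMonoidHom e.surjective,
      ← Subgroup.map_lowerCentralSeries, Subgroup.map_eq_bot_iff, MonoidHom.ker_eq_bot_iff
        _ |>.2 e.injective, le_bot_iff, Subgroup.top_lowerCentralSeries_pi_of_finite,
      Subgroup.pi_eq_bot_iff]
    intro p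
    rw [Subgroup.top_lowerCentralSeries_pi_of_finite, Subgroup.pi_eq_bot_iff]
    intro P
    haveI : Fact (p : ℕ).Prime := ⟨Nat.prime_of_mem_primeFactors p.2⟩
    exact hR P
  have := Subgroup.map_lowerCentralSeries (⊤ : Subgroup G) f k
  rw [Subgroup.map_top_of_surjective f hfs, hX, Subgroup.map_eq_bot_iff, QuotientGroup.ker_mk']
    at this
  exact this

theorem cond_of_nilpotent {k : ℕ}
    (h : Group.IsNilpotent ↥((⊤ : Subgroup G).lowerCentralSeries k)) : Cond G k := by
  intro x hx y hy hco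
  right
  rw [(show Commute x y from SolvStruct.nil_commute_of_coprime h (values_subset_lcs k hx)
    (values_subset_lcs k hy) hco).orderOf_mul_eq_mul_orderOf_of_coprime hco]

/-- The criterion. -/
theorem isNilpotent_lcs_iff
    (hFT : ∀ (H : Type u) [Group H] [Finite H], Odd (Nat.card H) → Group.IsSolvable H) (k : ℕ) :
    Group.IsNilpotent ↥((⊤ : Subgroup G).lowerCentralSeries k) ↔ Cond G k := by
  refine ⟨cond_of_nilpotent, fun h => ?_⟩
  haveI := h.isSolvable hFT
  haveI := Cores.fittingSubgroup_isNilpotent (G := G)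
  exact Group.nilpotent_of_mulEquiv (Subgroup.subgroupOfEquivOfLe h.lcs_le_fitting)

end Cfsg.Agent.CommValues
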