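import Cfsg.Agent.CommValues.Basic
import Cfsg.Agent.Cores.Fitting

/-!
# The product condition on commutator values of coprime orders
-/

set_option autoImplicit false

namespace Cfsg.Agent.CommValues

open scoped commutatorElement

variable {G : Type*} [Group G]

/-- The product condition. -/
def Cond (G : Type*) [Group G] (k : ℕ) : Prop :=
  ∀ x ∈ values G k, ∀ y ∈ values G k, (orderOf x).Coprime (orderOf y) →
    (∀ r : ℕ, r.Prime → r ∣ orderOf x * orderOf y → r ∣ orderOf (x * y)) ∨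
      orderOf x * orderOf y ≤ orderOf (x * y)

theorem Cond.subgroup {k : ℕ} (h : Cond G k) (H : Subgroup G) : Cond H k := by
  intro x hx y hy hco
  have := h x (map_mem_values H.subtype hx) y (map_mem_values H.subtype hy)
    (by rwa [Subgroup.orderOf_coe, Subgroup.orderOf_coe])
  rwa [← Subgroup.orderOf_coe x, ← Subgroup.orderOf_coe y, ← Subgroup.orderOf_coe (x * y),
    Subgroup.coe_mul]

/-- A value of order prime to `p` centralizes the `p`-subgroups it normalizes. -/
theorem Cond.centralizes [Finite G] {k : ℕ} (h : Cond G k) {p : ℕ} [hp : Fact p.Prime]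
    {P : Subgroup G} (hP : IsPGroup p P) {x : G} (hx : x ∈ values G k)
    (hxn : x ∈ Subgroup.normalizer (P : Set G)) (hco : (orderOf x).Coprime p) :
    ∀ g ∈ P, g * x = x * g := by
  intro g hg
  by_contra hne
  have h1 : ⁅g, x⁆ ≠ 1 := fun he => hne (commutatorElement_eq_one_iff_commute.1 he)
  have hy1 := iter_ne_one hP hxn hco hg h1 k
  have hyP := iter_mem hg hxn (k + 1)
  set y := iter x (k + 1) g with hy
  have hyV : y ∈ values G k := values_succ_subset k (iter_mem_values x g (k + 1))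
  obtain ⟨i, hi⟩ := hP ⟨y, hyP⟩
  obtain ⟨j, -, hj⟩ := (Nat.dvd_prime_pow hp.out).1
    (orderOf_dvd_of_pow_eq_one (congrArg Subtype.val hi : y ^ p ^ i = 1))
  have hj0 : j ≠ 0 := fun h0 => hy1 (orderOf_eq_one_iff.1 (by rw [hj, h0, pow_zero]))
  have hcop : (orderOf y).Coprime (orderOf x) := hj ▸ (hco.symm.pow_left j)
  have e : y * x = iter x k g * x * (iter x k g)⁻¹ := by
    rw [hy, iter, commutatorElement_def, inv_mul_cancel_right]
  have hox : orderOf (y * x) = orderOf x := by
    rw [e, ← MulAut.conj_apply]; exact MulEquiv.orderOf_eq _ x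
  have hpy : p ∣ orderOf y := hj ▸ dvd_pow_self p hj0
  rcases h y hyV x hx hcop with h2 | h2
  · have h3 := h2 p hp.out (hpy.trans (dvd_mul_right _ _))
    rw [hox] at h3
    exact (hp.out.coprime_iff_not_dvd.1 hco.symm) h3
  · rw [hox] at h2
    have h2' : 2 ≤ orderOf y := hp.out.two_le.trans (Nat.le_of_dvd (orderOf_pos y) hpy)
    have := Nat.mul_le_mul_right (orderOf x) h2'
    have := orderOf_pos x
    omega

theorem coprime_orderOf_of_isPGroup [Finite G] {p q : ℕ} [Fact p.Prime] (hq : q.Prime)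
    (hpq : p ≠ q) {P : Subgroup G} (hP : IsPGroup p P) {x : G} (hx : x ∈ P) :
    (orderOf x).Coprime q := by
  obtain ⟨i, hi⟩ := hP ⟨x, hx⟩
  exact (((Nat.coprime_primes Fact.out hq).2 hpq).pow_left i).coprime_dvd_left
    (orderOf_dvd_of_pow_eq_one (congrArg Subtype.val hi))

/-- Values of `p`-power order centralize `O_q`, `q ≠ p`. -/
theorem Cond.mem_centralizer_pCore [Finite G] {k : ℕ} (h : Cond G k) {p : ℕ} [Fact p.Prime]
    {P : Subgroup G} (hP : IsPGroup p P) {x : G} (hxP : x ∈ P) (hx : x ∈ values G k)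
    {q : ℕ} (hq : q.Prime) (hpq : p ≠ q) :
    x ∈ Subgroup.centralizer (Cfsg.pCore q G : Set G) := by
  haveI : Fact q.Prime := ⟨hq⟩
  refine Subgroup.mem_centralizer_iff.2 fun g hg => ?_
  refine h.centralizes Cores.pCore_isPGroup hx ?_ (coprime_orderOf_of_isPGroup hq hpq hP hxP) g hg
  exact Subgroup.normalizer_eq_top (H := Cfsg.pCore q G) ▸ Subgroup.mem_top x

/-- Lifting a `p`-subgroup of a quotient together with its normalizer. -/
theorem exists_lift [Finite G] {H : Type*} [Group H] {f : G →* H} (hf : Function.Surjective f)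
    {p : ℕ} [Fact p.Prime] {R : Subgroup H} (hR : IsPGroup p R) :
    ∃ P : Subgroup G, IsPGroup p P ∧ P.map f = R ∧
      Subgroup.normalizer (R : Set H) ≤ (Subgroup.normalizer (P : Set G)).map f := by
  haveI : Finite H := Finite.of_surjective f hf
  set W := (Subgroup.normalizer (R : Set H)).comap f with hW
  set U := R.comap f with hU
  have hUW : U ≤ W := Subgroup.comap_mono Subgroup.le_normalizer
  haveI hUn : (U.subgroupOf W).Normal := by
    refine ⟨fun x hx w => ?_⟩
    rw [Subgroup.mem_subgroupOf] at hx ⊢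
    simp only [hU, Subgroup.mem_comap, Subgroup.coe_mul, InvMemClass.coe_inv, map_mul, map_inv] at hx ⊢
    exact (Subgroup.mem_normalizer_iff.1 w.2 _).1 hx
  obtain ⟨Q⟩ : Nonempty (Sylow p ↥(U.subgroupOf W)) := inferInstance
  set P : Subgroup G := ((Q : Subgroup ↥(U.subgroupOf W)).map (U.subgroupOf W).subtype).map W.subtype
  let g : ↥(U.subgroupOf W) →* R :=
    MonoidHom.mk' (fun x => ⟨f (x : W), x.2⟩) (fun x y => Subtype.ext (map_mul f _ _))
  have hg : Function.Surjective g := by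
    rintro ⟨r, hr⟩
    obtain ⟨x, rfl⟩ := hf r
    exact ⟨⟨⟨x, hUW hr⟩, hr⟩, rfl⟩
  have hQR : (Q : Subgroup ↥(U.subgroupOf W)).map g = ⊤ := by
    have hd : (Q : Subgroup ↥(U.subgroupOf W)).index.Coprime p :=
      ((Fact.out : p.Prime).coprime_iff_not_dvd.2 Q.not_dvd_index).symm
    apply Subgroup.index_eq_one.1
    have h1 : ((Q : Subgroup ↥(U.subgroupOf W)).map g).index ∣
        (Q : Subgroup ↥(U.subgroupOf W)).index := Subgroup.index_map_dvd _ hg
    obtain ⟨i, hi⟩ := IsPGroup.iff_card.1 hR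
    have h2 : ((Q : Subgroup ↥(U.subgroupOf W)).map g).index ∣ p ^ i := hi ▸ Subgroup.index_dvd_card _
    exact Nat.eq_one_of_dvd_coprimes (hd.pow_right i) h1 h2
  have hPR : P.map f = R := by
    refine le_antisymm ?_ ?_
    · rintro _ ⟨_, ⟨_, ⟨x, -, rfl⟩, rfl⟩, rfl⟩
      exact x.2
    · intro r hr
      have h1 : (⟨r, hr⟩ : R) ∈ (Q : Subgroup ↥(U.subgroupOf W)).map g := hQR ▸ Subgroup.mem_top _
      obtain ⟨x, hx, e⟩ := h1
      exact ⟨_, ⟨_, ⟨x, hx, rfl⟩, rfl⟩, congrArg Subtype.val e⟩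
  refine ⟨P, (Q.2.map _).map _, hPR, fun n hn => ?_⟩
  obtain ⟨x, rfl⟩ := hf n
  have hx : (⟨x, hn⟩ : W) ∈ Subgroup.normalizer
      (((Q : Subgroup ↥(U.subgroupOf W)).map (U.subgroupOf W).subtype : Subgroup W) : Set W) ⊔
        U.subgroupOf W := by
    rw [Q.normalizer_sup_eq_top]
    exact Subgroup.mem_top _
  obtain ⟨m, hm, u, hu, e⟩ := Subgroup.mem_sup_of_normal_right.1 hx
  have hmP : (m : G) ∈ Subgroup.normalizer (P : Set G) :=
    Subgroup.le_normalizer_map W.subtype (Subgroup.mem_map_of_mem _ hm)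
  have hfu : f (u : W) ∈ R := hu
  rw [← hPR] at hfu
  obtain ⟨u', hu', e'⟩ := hfu
  refine ⟨(m : G) * u', mul_mem hmP (Subgroup.le_normalizer hu'), ?_⟩
  rw [map_mul, e', ← map_mul]
  exact congrArg f (congrArg Subtype.val e)

end Cfsg.Agent.CommValues
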