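import Cfsg.Agent.CommValues.Product
import Cfsg.Agent.S0071
import Cfsg.Agent.Invol.BaerSuzuki

/-!
# Groups with the product condition are solvable
-/

set_option autoImplicit false

namespace Cfsg.Agent.CommValues

open scoped commutatorElement

universe u

variable {G : Type u} [Group G]

/-- A value which is an involution modulo the kernel, inside a `2`-subgroup acted on nontrivially. -/
theorem exists_involution_value [Finite G] {H : Type*} [Group H] [Finite H] (f : G →* H) (k : ℕ)
    {Q : Subgroup G} (hQ : IsPGroup 2 Q) {n h : G}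
    (hn : n ∈ Subgroup.normalizer (Q : Set G)) (hco : (orderOf (f n)).Coprime 2) (hh : h ∈ Q)
    (h1 : f ⁅h, n⁆ ≠ 1) :
    ∃ q ∈ Q, q ∈ values G k ∧ f q ≠ 1 ∧ f q * f q = 1 := by
  haveI : Fact (Nat.Prime 2) := ⟨Nat.prime_two⟩
  have descend : ∀ c : ℕ → G, c 0 = 1 → (∀ m, c m ∈ Q) → (∀ m, c m ∈ values G k) →
      f (c 1) ≠ 1 → (∀ m, f (c (m + 1)) = f (c 1) * f (c m)) →
      ∃ q ∈ Q, q ∈ values G k ∧ f q ≠ 1 ∧ f q * f q = 1 := by
    intro c h0 hcQ hcV hc1 hmul
    have hpow : ∀ m, f (c m) = f (c 1) ^ m := by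
      intro m
      induction m with
      | zero => rw [h0, map_one, pow_zero]
      | succ m ih => rw [hmul, ih, pow_succ']
    obtain ⟨i, hi⟩ := (hQ.map f) ⟨f (c 1), Subgroup.mem_map_of_mem f (hcQ 1)⟩
    obtain ⟨l, -, hl⟩ := (Nat.dvd_prime_pow Nat.prime_two).1
      (orderOf_dvd_of_pow_eq_one (congrArg Subtype.val hi : f (c 1) ^ 2 ^ i = 1))
    obtain ⟨j, rfl⟩ : ∃ j, l = j + 1 := ⟨l - 1, by
      rcases Nat.eq_zero_or_pos l with h | h
      · exact absurd (orderOf_eq_one_iff.1 (by rw [hl, h, pow_zero])) hc1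
      · omega⟩
    refine ⟨c (2 ^ j), hcQ _, hcV _, ?_, ?_⟩
    · rw [hpow]
      exact pow_ne_one_of_lt_orderOf (by positivity) (by rw [hl, pow_succ]; have := Nat.one_le_two_pow (n := j); omega)
    · rw [hpow, ← pow_add, ← two_mul, ← pow_succ', ← hl, pow_orderOf_eq_one]
  by_cases hA : ∃ v ∈ Q, v ∈ values G k ∧ ∃ u ∈ Q, f ⁅v, u⁆ ≠ 1
  · obtain ⟨v, hv, hvV, u, hu, hne⟩ := hA
    haveI : Group.IsNilpotent Q := hQ.isNilpotent
    obtain ⟨N, hN⟩ := (Subgroup.isNilpotent_iff_lowerCentralSeries Q).1 inferInstance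
    have key : ∀ d i, i + d = N → ∀ v ∈ Q.lowerCentralSeries i, v ∈ Q → v ∈ values G k →
        (∃ u ∈ Q, f ⁅v, u⁆ ≠ 1) → ∃ q ∈ Q, q ∈ values G k ∧ f q ≠ 1 ∧ f q * f q = 1 := by
      intro d
      induction d with
      | zero =>
        intro i hi v hv _ _ hex
        rw [add_zero] at hi
        rw [hi, hN, Subgroup.mem_bot] at hv
        obtain ⟨u, -, hne⟩ := hex
        simp [hv] at hne
      | succ d ih =>
        intro i hi v hv hvQ hvV hex
        obtain ⟨u, hu, hne⟩ := hex
        have hwQ : ∀ t ∈ Q, ⁅v, t⁆ ∈ Q := fun t ht =>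
          comm_mem_of_normalizes hvQ (Subgroup.le_normalizer ht)
        by_cases hS : ∃ t ∈ Q, f ⁅⁅v, u⁆, t⁆ ≠ 1
        · exact ih (i + 1) (by omega) ⁅v, u⁆
            (Subgroup.commutator_mem_commutator hv hu) (hwQ u hu) (comm_mem_values hvV u) hS
        push Not at hS
        refine descend (fun m => ⁅v, u ^ m⁆) (by simp) (fun m => hwQ _ (pow_mem hu m))
          (fun m => comm_mem_values hvV _) (by simpa using hne) (fun m => ?_)
        have e : ⁅v, u ^ (m + 1)⁆ = ⁅v, u⁆ * (u * ⁅v, u ^ m⁆ * u⁻¹) := by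
          simp only [commutatorElement_def, pow_succ']; group
        have hcw : Commute (f ⁅v, u⁆) (f u) := by
          rw [← commutatorElement_eq_one_iff_commute, ← map_commutatorElement]
          exact hS u hu
        have hc2 : ∀ m, Commute (f ⁅v, u ^ m⁆) (f u) := by
          intro m
          induction m with
          | zero => simp
          | succ m ihm =>
            have e' : ⁅v, u ^ (m + 1)⁆ = ⁅v, u⁆ * (u * ⁅v, u ^ m⁆ * u⁻¹) := by
              simp only [commutatorElement_def, pow_succ']; group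
            rw [e', map_mul, map_mul, map_mul, map_inv, ← ihm.eq, mul_inv_cancel_right]
            exact hcw.mul_left ihm
        simp only [pow_one]
        rw [e, map_mul, map_mul, map_mul, map_inv, ← (hc2 m).eq, mul_inv_cancel_right]
    exact key N 0 (zero_add N) v (by rwa [Subgroup.lowerCentralSeries_zero]) hv hvV ⟨u, hu, hne⟩
  push Not at hA
  -- all values in `Q` are central modulo the kernel
  have hAn : ∀ x ∈ Q, (∀ u ∈ Q, f ⁅x, u⁆ = 1) → ∀ u ∈ Q, f ⁅⁅x, n⁆, u⁆ = 1 := by
    intro x hx hxc u hu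
    have h2 : Commute (f x) (f u) := by
      rw [← commutatorElement_eq_one_iff_commute, ← map_commutatorElement]; exact hxc u hu
    have hu' : n⁻¹ * u * n ∈ Q := (Subgroup.mem_normalizer_iff''.1 hn u).1 hu
    have h3 : Commute (f x) (f (n⁻¹ * u * n)) := by
      rw [← commutatorElement_eq_one_iff_commute, ← map_commutatorElement]; exact hxc _ hu'
    rw [map_mul, map_mul, map_inv] at h3
    have h4 : Commute (f n * f x * (f n)⁻¹) (f u) := by
      simpa [mul_assoc] using (Commute.conj_iff (f n)).2 h3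
    have e : f ⁅x, n⁆ = f x * (f n * f x * (f n)⁻¹)⁻¹ := by
      rw [map_commutatorElement, commutatorElement_def]; group
    rw [map_commutatorElement, commutatorElement_eq_one_iff_commute, e]
    exact h2.mul_left h4.inv_left
  obtain ⟨hwQ, -⟩ := exists_value_not_mem f hQ hn hco hh h1 k
  set w := iter n (k + 1) h with hw
  have hwc : ∀ u ∈ Q, f ⁅w, u⁆ = 1 :=
    hA w hwQ (values_succ_subset k (iter_mem_values n h (k + 1)))
  have hin : ∀ j x, x ∈ Q → (∀ u ∈ Q, f ⁅x, u⁆ = 1) →
      iter n j x ∈ Q ∧ ∀ u ∈ Q, f ⁅iter n j x, u⁆ = 1 := by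
    intro j x hx hxc
    induction j with
    | zero => exact ⟨hx, hxc⟩
    | succ j ih => exact ⟨comm_mem_of_normalizes ih.1 hn, hAn _ ih.1 ih.2⟩
  have hmulj : ∀ j x y, x ∈ Q → (∀ u ∈ Q, f ⁅x, u⁆ = 1) → y ∈ Q →
      (∀ u ∈ Q, f ⁅y, u⁆ = 1) → f (iter n j (x * y)) = f (iter n j x) * f (iter n j y) := by
    intro j x y hx hxc hy hyc
    induction j with
    | zero => exact map_mul f x y
    | succ j ih =>
      obtain ⟨hxj, hxjc⟩ := hin j x hx hxc
      obtain ⟨hyj, hyjc⟩ := hin j y hy hyc
      simp only [iter, map_commutatorElement, ih]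
      have hd := hxjc _ (comm_mem_of_normalizes hyj hn)
      rw [map_commutatorElement, map_commutatorElement,
        commutatorElement_eq_one_iff_commute] at hd
      have hd2 := hxjc _ (comm_mem_of_normalizes hxj hn)
      have hd3 := hAn _ hxj hxjc _ (comm_mem_of_normalizes hyj hn)
      rw [map_commutatorElement, map_commutatorElement, map_commutatorElement,
        commutatorElement_eq_one_iff_commute] at hd3
      calc ⁅f (iter n j x) * f (iter n j y), f n⁆
          = f (iter n j x) * ⁅f (iter n j y), f n⁆ * (f (iter n j x))⁻¹ * ⁅f (iter n j x), f n⁆ := by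
            simp only [commutatorElement_def]; group
        _ = ⁅f (iter n j y), f n⁆ * ⁅f (iter n j x), f n⁆ := by
            rw [hd.eq, mul_inv_cancel_right]
        _ = _ := hd3.eq.symm
  have hpc : ∀ m : ℕ, ∀ u ∈ Q, f ⁅w ^ m, u⁆ = 1 := by
    intro m u hu
    rw [map_commutatorElement, map_pow, commutatorElement_eq_one_iff_commute]
    have := hwc u hu
    rw [map_commutatorElement, commutatorElement_eq_one_iff_commute] at this
    exact this.pow_left m
  refine descend (fun m => iter n (k + 1) (w ^ m)) ?_ (fun m => iter_mem (pow_mem hwQ m) hn _)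
    (fun m => values_succ_subset k (iter_mem_values n _ (k + 1))) ?_ (fun m => ?_)
  · rw [pow_zero]
    have : ∀ j, iter n j (1 : G) = 1 := by
      intro j
      induction j with
      | zero => rfl
      | succ j ih => rw [iter, ih, commutatorElement_one_left]
    exact this _
  · simp only [pow_one]
    refine (exists_value_not_mem f hQ hn hco hwQ ?_ k).2
    have h5 := (exists_value_not_mem f hQ hn hco hh h1 (k + 1)).2
    exact h5
  · simp only [pow_one]
    rw [← hmulj (k + 1) w (w ^ m) hwQ hwc (pow_mem hwQ m) (hpc m), ← pow_succ']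

/-- Under the odd order theorem, the product condition forces solvability. -/
theorem Cond.isSolvable
    (hFT : ∀ (H : Type u) [Group H] [Finite H], Odd (Nat.card H) → Group.IsSolvable H) (k : ℕ)
    {G : Type u} [Group G] [Finite G] (h : Cond G k) : Group.IsSolvable G := by
  suffices main : ∀ (n : ℕ) (G : Type u) [Group G] [Finite G], Nat.card G = n → Cond G k →
      Group.IsSolvable G from main _ G rfl h
  clear h
  intro n
  induction n using Nat.strong_induction_on with
  | _ n ih =>
    intro G _ _ hn h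
    by_contra hns
    have hsub : ∀ M : Subgroup G, M ≠ ⊤ → Group.IsSolvable M := fun M hM =>
      ih _ (hn ▸ lt_of_le_of_ne (Nat.le_of_dvd Nat.card_pos M.card_subgroup_dvd_card)
        (fun e => hM (Subgroup.eq_top_of_card_eq M e))) M rfl (h.subgroup M)
    -- a maximal normal subgroup
    obtain ⟨N, hN, hNmax⟩ := Set.Finite.exists_maximal
      (s := {N : Subgroup G | N.Normal ∧ N ≠ ⊤}) (Set.toFinite _)
      ⟨⊥, inferInstance, fun e => hns (by
        haveI : Subsingleton (Subgroup G) := subsingleton_of_bot_eq_top e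
        haveI : Subsingleton G := Subgroup.subsingleton_iff.1 inferInstance
        infer_instance)⟩
    obtain ⟨hNn, hNt⟩ := hN
    haveI := hNn
    have hNs := hsub N hNt
    let f := QuotientGroup.mk' N
    have hfs : Function.Surjective f := QuotientGroup.mk'_surjective N
    have hQns : ¬ Group.IsSolvable (G ⧸ N) := fun hq =>
      hns (Group.isSolvable_of_ker_le_range N.subtype f (by simp [f]))
    have habove : ∀ M : Subgroup G, M.Normal → N ≤ M → M ≠ ⊤ → M = N := fun M hM hle hne =>
      le_antisymm (hNmax ⟨hM, hne⟩ hle) hle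
    have hsup : ∀ C : Subgroup G, C.Normal → ¬ C ≤ N → C = ⊤ := by
      intro C hC hCN
      by_contra hCt
      haveI := hsub C hCt
      have hCN' : C ⊔ N = ⊤ := by
        by_contra hne
        exact hCN (le_sup_left.trans (habove _ inferInstance le_sup_right hne).le)
      refine hQns ?_
      have hs : Function.Surjective (f.comp C.subtype) := by
        intro q
        obtain ⟨g, rfl⟩ := hfs q
        obtain ⟨c, hc, m, hm, rfl⟩ := Subgroup.mem_sup_of_normal_right.1
          (show g ∈ C ⊔ N from hCN' ▸ Subgroup.mem_top g)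
        refine ⟨⟨c, hc⟩, ?_⟩
        have : f m = 1 := (QuotientGroup.eq_one_iff m).2 hm
        simp [map_mul, this]
      exact Group.isSolvable_of_surjective hs
    have hfrat : N ≤ frattini G := by
      refine le_iInf₂ fun M hM => ?_
      by_contra hle
      have hMN : M ⊔ N = ⊤ := hM.2 _ (lt_of_le_of_ne le_sup_left (fun e => hle (e ▸ le_sup_right)))
      haveI := hsub M hM.1
      refine hQns ?_
      have hs : Function.Surjective (f.comp M.subtype) := by
        intro q
        obtain ⟨g, rfl⟩ := hfs q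
        obtain ⟨c, hc, m, hm, rfl⟩ := Subgroup.mem_sup_of_normal_right.1
          (show g ∈ M ⊔ N from hMN ▸ Subgroup.mem_top g)
        refine ⟨⟨c, hc⟩, ?_⟩
        have : f m = 1 := (QuotientGroup.eq_one_iff m).2 hm
        simp [map_mul, this]
      exact Group.isSolvable_of_surjective hs
    have hNnil : Group.IsNilpotent N := by
      haveI : Group.IsNilpotent (frattini G) := frattini_nilpotent
      exact Group.nilpotent_of_mulEquiv (Subgroup.subgroupOfEquivOfLe hfrat)
    -- local action modulo `N`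
    have hlocal : ∀ p : ℕ, p.Prime → p ∣ Nat.card (G ⧸ N) → ∃ (Q : Subgroup G) (n h : G),
        IsPGroup p Q ∧ n ∈ Subgroup.normalizer (Q : Set G) ∧ (orderOf (f n)).Coprime p ∧ h ∈ Q ∧
          f ⁅h, n⁆ ≠ 1 := by
      intro p hp hdvd
      haveI : Fact p.Prime := ⟨hp⟩
      obtain ⟨P⟩ : Nonempty (Sylow p (G ⧸ N)) := inferInstance
      by_contra hno
      push Not at hno
      have hcrit : ∀ R : Subgroup (G ⧸ N), R ≤ (P : Subgroup (G ⧸ N)) →
          ∀ g ∈ Subgroup.normalizer (R : Set (G ⧸ N)), Nat.Coprime (orderOf g) p →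
            g ∈ Subgroup.centralizer (R : Set (G ⧸ N)) := by
        intro R hR g hg hgo
        obtain ⟨Q, hQ, hQR, hle⟩ := exists_lift hfs (P.2.to_le hR)
        obtain ⟨n, hn, rfl⟩ := hle hg
        refine Subgroup.mem_centralizer_iff.2 fun x hx => ?_
        rw [← hQR] at hx
        obtain ⟨q, hq, rfl⟩ := hx
        have := hno Q n q hQ hn hgo hq
        rw [map_commutatorElement, commutatorElement_eq_one_iff_commute] at this
        exact this
      obtain ⟨K, hK, hKP⟩ := (Cfsg.Agent.S0071.result P).2 hcrit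
      have hcard := hKP.card_mul_card
      by_cases hKt : K.comap f = ⊤
      · have hKtop : K = ⊤ := by
          rw [← Subgroup.map_comap_eq_self_of_surjective hfs K, hKt,
            Subgroup.map_top_of_surjective f hfs]
        rw [hKtop, Subgroup.card_top] at hcard
        have hP1 : Nat.card (P : Subgroup (G ⧸ N)) = 1 :=
          Nat.eq_of_mul_eq_mul_left Nat.card_pos (hcard.trans (mul_one _).symm)
        have := P.pow_dvd_card_of_pow_dvd_card (n := 1) (by rwa [pow_one])
        rw [hP1, pow_one, Nat.dvd_one] at this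
        exact hp.one_lt.ne' this
      · have hKN := habove (K.comap f) inferInstance (fun x hx => by
          show f x ∈ K
          rw [show f x = 1 from (QuotientGroup.eq_one_iff x).2 hx]
          exact one_mem K) hKt
        have hKbot : K = ⊥ := by
          rw [← Subgroup.map_comap_eq_self_of_surjective hfs K, hKN, QuotientGroup.map_mk'_self]
        rw [hKbot, Subgroup.card_bot, one_mul] at hcard
        haveI : Group.IsNilpotent (G ⧸ N) :=
          (IsPGroup.of_card (P.card_eq_multiplicity ▸ hcard.symm)).isNilpotent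
        exact hQns inferInstance
    have heven : 2 ∣ Nat.card (G ⧸ N) := by
      by_contra hodd
      exact hQns (hFT _ (Nat.odd_iff.2 (by omega)))
    -- values outside `N` of any two prime orders
    have hval : ∀ p : ℕ, p.Prime → ∃ (r : ℕ) (Q : Subgroup G), r.Prime ∧ r ≠ p ∧ IsPGroup r Q ∧
        ∃ v ∈ Q, v ∈ values G k ∧ v ∉ N := by
      intro p _
      obtain ⟨r, hr, hrd, hrp⟩ : ∃ r, r.Prime ∧ r ∣ Nat.card (G ⧸ N) ∧ r ≠ p := by
        by_contra hall
        push Not at hall
        have h2 : p = 2 := (hall 2 Nat.prime_two heven).symm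
        subst h2
        haveI : Fact (Nat.Prime 2) := ⟨Nat.prime_two⟩
        have hp2 : IsPGroup 2 (G ⧸ N) := IsPGroup.of_card
          (Nat.eq_prime_pow_of_unique_prime_dvd Nat.card_pos.ne' fun {d} hd hdd => hall d hd hdd)
        haveI := hp2.isNilpotent
        exact hQns inferInstance
      haveI : Fact r.Prime := ⟨hr⟩
      obtain ⟨Q, m, x, hQ, hm, hco, hx, hne⟩ := hlocal r hr hrd
      obtain ⟨hw, hw1⟩ := exists_value_not_mem f hQ hm hco hx hne k
      exact ⟨r, Q, hr, hrp, hQ, _, hw, values_succ_subset k (iter_mem_values _ _ _),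
        fun hmem => hw1 ((QuotientGroup.eq_one_iff _).2 hmem)⟩
    have hcentral : N ≤ Subgroup.center G := by
      have h1 : ∀ q : ℕ, q.Prime → Cfsg.pCore q G ≤ Subgroup.center G := by
        intro q hq
        obtain ⟨r, Q, hr, hrq, hQ, v, hvQ, hvV, hvN⟩ := hval q hq
        haveI : Fact r.Prime := ⟨hr⟩
        have hC : Subgroup.centralizer (Cfsg.pCore q G : Set G) = ⊤ :=
          hsup _ inferInstance fun hle =>
            hvN (hle (h.mem_centralizer_pCore hQ hvQ hvV hq hrq))
        rwa [Subgroup.centralizer_eq_top_iff_subset] at hC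
      exact (Cores.le_iSup_pCore_of_nilpotent hNnil).trans (iSup_le fun q => h1 q q.2)
    -- an involution value modulo `N`
    obtain ⟨Q, m, x, hQ, hm, hco, hx, hne⟩ := hlocal 2 Nat.prime_two heven
    obtain ⟨t, htQ, htV, ht1, ht2⟩ := exists_involution_value f k hQ hm hco hx hne
    have hto : orderOf (f t) = 2 := orderOf_eq_prime (by rw [pow_two]; exact ht2) ht1
    classical
    obtain ⟨u, hu1, huodd, huinv⟩ := Invol.exists_inverted_odd (f t) hto (fun M hM hMp hmem => by
      haveI : M.Normal := hM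
      by_cases hMt : M.comap f = ⊤
      · have hMtop : M = ⊤ := by
          rw [← Subgroup.map_comap_eq_self_of_surjective hfs M, hMt,
            Subgroup.map_top_of_surjective f hfs]
        haveI : Fact (Nat.Prime 2) := ⟨Nat.prime_two⟩
        subst hMtop
        haveI := (hMp.of_equiv Subgroup.topEquiv).isNilpotent
        exact hQns inferInstance
      · have hMN := habove (M.comap f) inferInstance (fun y hy => by
          show f y ∈ M
          rw [show f y = 1 from (QuotientGroup.eq_one_iff y).2 hy]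
          exact one_mem M) hMt
        have : t ∈ M.comap f := hmem
        rw [hMN] at this
        exact ht1 ((QuotientGroup.eq_one_iff t).2 this))
    -- the preimage of the inverted subgroup is abelian
    set U := (Subgroup.zpowers u).comap f with hU
    obtain ⟨u₀, rfl⟩ := hfs u
    have hUmem : ∀ y ∈ U, ∃ (i : ℤ), ∃ z ∈ N, y = u₀ ^ i * z := by
      intro y hy
      obtain ⟨i, hi⟩ := Subgroup.mem_zpowers_iff.1 hy
      refine ⟨i, (u₀ ^ i)⁻¹ * y, ?_, by group⟩
      rw [← QuotientGroup.eq_one_iff]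
      show f ((u₀ ^ i)⁻¹ * y) = 1
      rw [map_mul, map_inv, map_zpow, hi, inv_mul_cancel]
    have hUcomm : ∀ y ∈ U, ∀ z ∈ U, Commute y z := by
      intro y hy z hz
      obtain ⟨i, a, ha, rfl⟩ := hUmem y hy
      obtain ⟨j, b, hb, rfl⟩ := hUmem z hz
      have ha' : ∀ g, Commute a g := fun g => (Subgroup.mem_center_iff.1 (hcentral ha) g).symm
      have hb' : ∀ g, Commute b g := fun g => (Subgroup.mem_center_iff.1 (hcentral hb) g).symm
      exact (((Commute.refl u₀).zpow_zpow i j).mul_right (hb' _).symm).mul_left (ha' _)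
    have hUt : ∀ y ∈ U, t * y * t⁻¹ ∈ U := by
      intro y hy
      obtain ⟨i, hi⟩ := Subgroup.mem_zpowers_iff.1 hy
      refine Subgroup.mem_zpowers_iff.2 ⟨-i, ?_⟩
      rw [map_mul, map_mul, map_inv, ← hi, ← conj_zpow, huinv, inv_zpow, zpow_neg]
    -- some odd prime part survives
    have ho : orderOf (f u₀) ≠ 1 := fun e => hu1 (orderOf_eq_one_iff.1 e)
    set p := (orderOf (f u₀)).minFac with hpdef
    have hp : p.Prime := Nat.minFac_prime ho
    haveI : Fact p.Prime := ⟨hp⟩
    have hp2 : p ≠ 2 := fun e =>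
      (Nat.not_even_iff_odd.2 huodd) (even_iff_two_dvd.2 (e ▸ Nat.minFac_dvd _))
    obtain ⟨e, s, hs, hord⟩ := Nat.exists_eq_pow_mul_and_not_dvd (orderOf_pos u₀).ne' p hp.ne_one
    let P : Subgroup G :=
      { carrier := {y | y ∈ U ∧ ∃ i, y ^ p ^ i = 1}
        one_mem' := ⟨one_mem U, 0, one_pow _⟩
        mul_mem' := by
          rintro y z ⟨hy, i, hi⟩ ⟨hz, j, hj⟩
          refine ⟨mul_mem hy hz, i + j, ?_⟩
          rw [(hUcomm y hy z hz).mul_pow, pow_add]
          nth_rewrite 2 [mul_comm]
          rw [pow_mul, hi, one_pow, one_mul, pow_mul, hj, one_pow]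
        inv_mem' := by
          rintro y ⟨hy, i, hi⟩
          exact ⟨inv_mem hy, i, by rw [inv_pow, hi, inv_one]⟩ }
    have hPp : IsPGroup p P := fun ⟨y, _, i, hi⟩ => ⟨i, Subtype.ext hi⟩
    have htn : t ∈ Subgroup.normalizer (P : Set G) := by
      have hP' : ∀ y ∈ P, t * y * t⁻¹ ∈ P := by
        rintro y ⟨hy, i, hi⟩
        exact ⟨hUt y hy, i, by rw [conj_pow, hi, mul_one, mul_inv_cancel]⟩
      exact (Subgroup.mem_normalizer_iff_map_conj_eq).2
        (Subgroup.eq_of_le_of_card_ge (by rintro _ ⟨y, hy, rfl⟩; exact hP' y hy)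
          (le_of_eq (Subgroup.card_map_of_injective (MulAut.conj t).injective).symm))
    have hzP : u₀ ^ s ∈ P := ⟨pow_mem (Subgroup.mem_comap.2 (Subgroup.mem_zpowers _)) s, e, by
      rw [← pow_mul, mul_comm, ← hord, pow_orderOf_eq_one]⟩
    have hcomm := h.centralizes hPp htV htn
      (coprime_orderOf_of_isPGroup hp (Ne.symm hp2) hQ htQ) _ hzP
    have hfz : f (u₀ ^ s) = f (u₀ ^ s)⁻¹ := by
      have h1 : f t * f (u₀ ^ s) * (f t)⁻¹ = (f (u₀ ^ s))⁻¹ := by
        rw [map_pow, ← conj_pow, huinv, inv_pow]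
      have h2 : f (u₀ ^ s) * f t = f t * f (u₀ ^ s) := by rw [← map_mul, ← map_mul, hcomm]
      rw [← h2, mul_inv_cancel_right] at h1
      rw [map_inv]
      exact h1
    have hsq : f u₀ ^ (2 * s) = 1 := by
      rw [map_inv, ← mul_eq_one_iff_eq_inv] at hfz
      rw [two_mul, pow_add, ← map_pow]
      exact hfz
    have hd : p ∣ 2 * s := (Nat.minFac_dvd _).trans (orderOf_dvd_of_pow_eq_one hsq)
    rcases hp.dvd_mul.1 hd with h3 | h3
    · exact hp2 ((Nat.prime_dvd_prime_iff_eq hp Nat.prime_two).1 h3)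
    · exact hs h3

end Cfsg.Agent.CommValues
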